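-- Project FIX2 (S3390), package [A1] (helper72).
import Mathlib
import Cfsg.Agent.Lib.Helper95.Fix2.Defs

set_option autoImplicit false

namespace Cfsg.Agent.Lib.Helper72.Fix2

open Cfsg.Agent.Lib.Helper95.Fix2

universe u v

/-- **[A1]** If `S` preserves `{α, β}` and some non-identity element of `S` fixes a third point,
then `S` has an involution `x` with `|C_S(x)| = 4`, and if `|S| = 4` a second involution. -/
theorem pkgA1 : PkgA1.{u, v} := by
  intro G _ _ Ω _ S α β t hP hF hT hL hall hex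
  classical
  obtain ⟨ω, hωα, hωβ, s, hsS, hs1, hsω⟩ := hex
  have hnot : ∀ c ∈ S, c ≠ 1 → c • α = α → c • ω ≠ ω := by
    intro c hc hc1 hcα h
    rcases hL.fix c hc hc1 hcα ω h with h' | h'
    · exact hωα h'
    · exact hωβ h'
  have hsα : s • α = β := by
    rcases hall s hsS with h | h
    · exact absurd hsω (hnot s hsS hs1 h)
    · exact h
  have hsβ : s • β = α := by
    rcases hall (s * t) (S.mul_mem hsS hL.tS) with h | h
    · rw [mul_smul, hL.tα] at h
      exact h
    · rw [mul_smul, hL.tα] at h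
      have h2 := hL.ba s hsS h
      rw [hsα] at h2
      exact absurd h2 hL.ne
  have hs2 : s * s = 1 := by
    by_contra h
    apply hnot (s * s) (S.mul_mem hsS hsS) h
    · rw [mul_smul, hsα, hsβ]
    · rw [mul_smul, hsω, hsω]
  -- the key claim
  have KC : ∀ c ∈ S, ∀ c' ∈ S, c ≠ 1 → c' ≠ 1 → c • α = α → c' • α = α → c * s = s * c →
      c' * s = s * c' → c = c' := by
    intro c hc c' hc' hc1 hc'1 hcα hc'α hcs hc's
    have h1 : s • (c • ω) = c • ω := by rw [← mul_smul, ← hcs, mul_smul, hsω]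
    have h2 : s • (c' • ω) = c' • ω := by rw [← mul_smul, ← hc's, mul_smul, hsω]
    rcases hF s hsS hs1 ω (c • ω) (c' • ω) hsω h1 h2 with h | h | h
    · exact absurd h.symm (hnot c hc hc1 hcα)
    · exact absurd h.symm (hnot c' hc' hc'1 hc'α)
    · by_contra hne
      have h3 : c⁻¹ * c' ≠ 1 := by
        intro h4
        exact hne (inv_mul_eq_one.mp h4)
      apply hnot (c⁻¹ * c') (S.mul_mem (S.inv_mem hc) hc') h3
      · rw [mul_smul, hc'α, inv_smul_eq_iff, hcα]
      · rw [mul_smul, ← h, inv_smul_smul]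
  obtain ⟨x, hx⟩ : ∃ x : ↥S, (x : G) = s := ⟨⟨s, hsS⟩, rfl⟩
  have hx1 : x ≠ 1 := by
    intro h
    apply hs1
    rw [← hx, h]
    rfl
  have hxx : x * x = 1 := by
    apply Subtype.ext
    rw [Subgroup.coe_mul, hx]
    exact hs2
  have hxord : orderOf x = 2 := by
    apply orderOf_eq_prime
    · rw [pow_two]
      exact hxx
    · exact hx1
  obtain ⟨c₀, hc₀⟩ : ∃ c₀ : ↥S, ∀ g : ↥S, (g : G) • α = α → g * x = x * g → g = 1 ∨ g = c₀ := by
    by_cases h : ∃ c : ↥S, c ≠ 1 ∧ (c : G) • α = α ∧ c * x = x * c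
    · obtain ⟨c, hc1, hcα, hcx⟩ := h
      refine ⟨c, fun g hgα hgx => ?_⟩
      by_cases hg1 : g = 1
      · exact Or.inl hg1
      · right
        apply Subtype.ext
        apply KC (g : G) g.2 (c : G) c.2 (fun h => hg1 (Subtype.ext h))
          (fun h => hc1 (Subtype.ext h)) hgα hcα
        · have h2 := congrArg Subtype.val hgx
          rw [Subgroup.coe_mul, Subgroup.coe_mul, hx] at h2
          exact h2
        · have h2 := congrArg Subtype.val hcx
          rw [Subgroup.coe_mul, Subgroup.coe_mul, hx] at h2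
          exact h2
    · refine ⟨1, fun g hgα hgx => ?_⟩
      left
      by_contra hg1
      exact h ⟨g, hg1, hgα, hgx⟩
  have hxC : x ∈ Subgroup.centralizer ({x} : Set ↥S) := by
    rw [Subgroup.mem_centralizer_iff]
    intro h hh
    rw [Set.mem_singleton_iff.mp hh]
  have hCsub : ∀ g ∈ Subgroup.centralizer ({x} : Set ↥S),
      g = 1 ∨ g = c₀ ∨ g = x ∨ g = x * c₀ := by
    intro g hg
    rw [Subgroup.mem_centralizer_iff] at hg
    have hgx : g * x = x * g := (hg x (Set.mem_singleton x)).symm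
    rcases hall (g : G) g.2 with h | h
    · rcases hc₀ g h hgx with h' | h'
      · exact Or.inl h'
      · exact Or.inr (Or.inl h')
    · have h1 : ((x * g : ↥S) : G) • α = α := by
        rw [Subgroup.coe_mul, mul_smul, h, hx, hsβ]
      have h2 : (x * g) * x = x * (x * g) := by rw [mul_assoc, hgx]
      rcases hc₀ (x * g) h1 h2 with h' | h'
      · right; right; left
        have h3 : g = x⁻¹ := eq_inv_of_mul_eq_one_right h'
        rw [h3]
        exact inv_eq_of_mul_eq_one_right hxx
      · right; right; right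
        rw [← h', ← mul_assoc, hxx, one_mul]
  have hle : Nat.card ↥(Subgroup.centralizer ({x} : Set ↥S)) ≤ 4 := by
    have h1 : ((Subgroup.centralizer ({x} : Set ↥S) : Subgroup ↥S) : Set ↥S) ⊆
        (({1, c₀, x, x * c₀} : Finset ↥S) : Set ↥S) := by
      intro g hg
      have h2 := hCsub g hg
      simp only [Finset.coe_insert, Finset.coe_singleton, Set.mem_insert_iff,
        Set.mem_singleton_iff]
      exact h2
    have h2 := Set.ncard_le_ncard h1 (Finset.finite_toSet _)
    rw [Set.ncard_coe_finset] at h2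
    have h3 : Nat.card ↥(Subgroup.centralizer ({x} : Set ↥S)) =
        ((Subgroup.centralizer ({x} : Set ↥S) : Subgroup ↥S) : Set ↥S).ncard :=
      Nat.card_coe_set_eq _
    rw [h3]
    exact h2.trans Finset.card_le_four
  have hPC : IsPGroup 2 ↥(Subgroup.centralizer ({x} : Set ↥S)) := hP.to_subgroup _
  obtain ⟨k, hk⟩ := IsPGroup.iff_card.mp hPC
  obtain ⟨⟨τ, hτ⟩, hτ1⟩ := Subgroup.ne_bot_iff_exists_ne_one.mp hT
  have hτα : τ • α = α := MulAction.mem_stabilizer_iff.mp hτ.2
  have hτ1' : τ ≠ 1 := fun h => hτ1 (Subtype.ext h)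
  have hτx : (⟨τ, hτ.1⟩ : ↥S) ≠ x := by
    intro h
    have h1 : τ = s := by
      have h2 := congrArg Subtype.val h
      rw [hx] at h2
      exact h2
    rw [h1, hsα] at hτα
    exact hL.ne hτα
  have hcard4 : Nat.card ↥(Subgroup.centralizer ({x} : Set ↥S)) = 4 := by
    have hk2 : k ≤ 2 := by
      by_contra h
      have h1 : 2 ^ 3 ≤ 2 ^ k := Nat.pow_le_pow_right (by norm_num) (by omega)
      rw [hk] at hle
      omega
    interval_cases k
    · exfalso
      have h1 := Subgroup.eq_bot_of_card_eq _ hk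
      rw [h1, Subgroup.mem_bot] at hxC
      exact hx1 hxC
    · exfalso
      rw [pow_one, Nat.card_eq_two_iff' (1 : ↥(Subgroup.centralizer ({x} : Set ↥S)))] at hk
      obtain ⟨w, -, hw⟩ := hk
      have hSnt : Nontrivial ↥S := ⟨⟨x, 1, hx1⟩⟩
      have hZnt : Nontrivial (Subgroup.center ↥S) := hP.center_nontrivial
      obtain ⟨z, hz1⟩ := exists_ne (1 : Subgroup.center ↥S)
      have hzC : (z : ↥S) ∈ Subgroup.centralizer ({x} : Set ↥S) :=
        Subgroup.center_le_centralizer _ z.2
      have e1 : (⟨(z : ↥S), hzC⟩ : ↥(Subgroup.centralizer ({x} : Set ↥S))) = w := by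
        apply hw
        intro h
        apply hz1
        apply Subtype.ext
        have h2 : (z : ↥S) = 1 := congrArg Subtype.val h
        exact h2
      have e2 : (⟨x, hxC⟩ : ↥(Subgroup.centralizer ({x} : Set ↥S))) = w := by
        apply hw
        intro h
        exact hx1 (congrArg Subtype.val h)
      have hzx : (z : ↥S) = x := congrArg Subtype.val (e1.trans e2.symm)
      have hxcen : x ∈ Subgroup.center ↥S := by
        rw [← hzx]
        exact z.2
      rw [Subgroup.mem_center_iff] at hxcen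
      have hτC : (⟨τ, hτ.1⟩ : ↥S) ∈ Subgroup.centralizer ({x} : Set ↥S) := by
        rw [Subgroup.mem_centralizer_iff]
        intro h hh
        rw [Set.mem_singleton_iff.mp hh]
        exact (hxcen _).symm
      have e3 : (⟨(⟨τ, hτ.1⟩ : ↥S), hτC⟩ : ↥(Subgroup.centralizer ({x} : Set ↥S))) = w := by
        apply hw
        intro h
        apply hτ1'
        exact congrArg Subtype.val (congrArg Subtype.val h)
      exact hτx (congrArg Subtype.val (e3.trans e2.symm))
    · rw [hk]
      norm_num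
  refine ⟨x, hxord, hcard4, fun hS4 => ⟨⟨τ, hτ.1⟩, ?_, hτx⟩⟩
  have hd : orderOf (⟨τ, hτ.1⟩ : ↥S) ∣ 2 ^ 2 := by
    have h1 := orderOf_dvd_natCard (⟨τ, hτ.1⟩ : ↥S)
    rw [hS4] at h1
    exact h1
  obtain ⟨m, hm, hmo⟩ := (Nat.dvd_prime_pow Nat.prime_two).mp hd
  interval_cases m
  · exfalso
    rw [pow_zero, orderOf_eq_one_iff] at hmo
    exact hτ1' (congrArg Subtype.val hmo)
  · rw [hmo, pow_one]
  · exfalso
    have h1 : Subgroup.zpowers (⟨τ, hτ.1⟩ : ↥S) = ⊤ := by
      apply Subgroup.eq_top_of_card_eq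
      rw [Nat.card_zpowers, hmo, hS4]
      norm_num
    have h2 : x ∈ Subgroup.zpowers (⟨τ, hτ.1⟩ : ↥S) := by
      rw [h1]
      exact Subgroup.mem_top x
    obtain ⟨j, hj⟩ := Subgroup.mem_zpowers_iff.mp h2
    have h3 : τ ^ j • α = α :=
      MulAction.mem_stabilizer_iff.mp (Subgroup.zpow_mem _ hτ.2 j)
    have h4 : (x : G) = τ ^ j := by
      rw [← hj]
      simp
    rw [hx] at h4
    rw [← h4, hsα] at h3
    exact hL.ne h3

end Cfsg.Agent.Lib.Helper72.Fix2
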