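-- Project FIX2 (S3390), package [FROB] (helper72).
import Mathlib
import Cfsg.Agent.Lib.Helper95.Fix2.Defs

set_option autoImplicit false

namespace Cfsg.Agent.Lib.Helper72.Fix2

open Cfsg.Agent.Lib.Helper95.Fix2

universe u v

section
variable {G : Type u} [Group G] {Ω : Type v} [MulAction G Ω]

theorem frobPowFix (g : G) (a : Ω) (h : g • a = a) (k : ℕ) : g ^ k • a = a := by
  induction k with
  | zero => simp
  | succ k ih => rw [pow_succ, mul_smul, h, ih]

/-- An element `g` with `g ^ q = 1` (`q` prime) acting without fixed points on an invariant finite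
set `Z`: `q ∣ |Z|`. -/
theorem frobDvdCard (g : G) (q : ℕ) (hq : q.Prime) (hgq : g ^ q = 1) (Z : Finset Ω)
    (hinv : ∀ ω ∈ Z, g • ω ∈ Z) (hnofix : ∀ ω ∈ Z, g • ω ≠ ω) : q ∣ Z.card := by
  classical
  obtain ⟨f, hf⟩ : ∃ f : Function.End {ω // ω ∈ Z},
      ∀ ω, ((f ω : {ω // ω ∈ Z}) : Ω) = g • (ω : Ω) :=
    ⟨fun ω => ⟨g • (ω : Ω), hinv _ ω.2⟩, fun _ => rfl⟩
  have hfpow : ∀ (k : ℕ) (ω : {ω // ω ∈ Z}),
      (((f ^ k) ω : {ω // ω ∈ Z}) : Ω) = g ^ k • (ω : Ω) := by
    intro k
    induction k with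
    | zero =>
      intro ω
      rw [pow_zero, pow_zero, one_smul]
      rfl
    | succ k ih =>
      intro ω
      rw [pow_succ', pow_succ', mul_smul, ← ih ω, ← hf]
      rfl
  have hfq : f ^ q ^ 1 = 1 := by
    rw [pow_one]
    funext ω
    apply Subtype.ext
    rw [hfpow, hgq, one_smul]
    rfl
  have hqF : Fact q.Prime := ⟨hq⟩
  have hmod := Equiv.Perm.card_fixedPoints_modEq (f := f) hfq
  have hfix : ∀ (inst : Fintype (Function.fixedPoints f)), @Fintype.card _ inst = 0 := by
    intro inst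
    rw [Fintype.card_eq_zero_iff]
    refine ⟨fun ω => ?_⟩
    have h1 : f ω.1 = ω.1 := ω.2
    have h2 := congrArg Subtype.val h1
    rw [hf] at h2
    exact hnofix _ ω.1.2 h2
  rw [hfix, Fintype.card_coe] at hmod
  exact (Nat.modEq_zero_iff_dvd).mp hmod

end

/-- **[FROB]** The point stabilizer is a Frobenius complement in `N`. -/
theorem pkgFrob : PkgFrob.{u, v} := by
  intro G _ _ Ω _ _ S N α β t hT hF hN hI hfixN htN htα hω hx hS
  classical
  have hΩ : Fintype Ω := Fintype.ofFinite Ω
  have hβα : β ≠ α := by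
    intro h
    apply htN
    exact hfixN t ⟨α, by rw [htα, h]⟩
  have hF' : ∀ g : G, g ≠ 1 → ∀ a b c : Ω, g • a = a → g • b = b → g • c = c →
      a = b ∨ a = c ∨ b = c :=
    fun g hg => hF g (Subgroup.mem_top g) hg
  -- the key lemma
  have key : ∀ g : G, g ≠ 1 → g • α = α → ∀ n ∈ N, n • α ≠ α → g • (n • α) = n • α → False := by
    intro g hg1 hgα n hnN hnα hgα'
    obtain ⟨α', hα'⟩ : ∃ α' : Ω, α' = n • α := ⟨_, rfl⟩
    rw [← hα'] at hnα hgα'
    have hord : orderOf g ≠ 1 := by rwa [Ne, orderOf_eq_one_iff]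
    obtain ⟨q, hq, hqd⟩ := Nat.exists_prime_and_dvd hord
    have hpos : orderOf g ≠ 0 := (orderOf_pos g).ne'
    obtain ⟨g₀, hg₀⟩ : ∃ g₀ : G, g₀ = g ^ (orderOf g / q) := ⟨_, rfl⟩
    have hg₀ord : orderOf g₀ = q := by
      rw [hg₀]
      exact orderOf_pow_orderOf_div hpos hqd
    have hg₀1 : g₀ ≠ 1 := by
      intro h
      rw [h, orderOf_one] at hg₀ord
      exact hq.one_lt.ne hg₀ord
    have hg₀α : g₀ • α = α := by
      rw [hg₀]
      exact frobPowFix g α hgα _
    have hg₀α' : g₀ • α' = α' := by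
      rw [hg₀]
      exact frobPowFix g α' hgα' _
    have hg₀N : g₀ ∈ N := hfixN g₀ ⟨α, hg₀α⟩
    have hg₀q : g₀ ^ q = 1 := by
      rw [← hg₀ord]
      exact pow_orderOf_eq_one g₀
    by_cases hq2 : q = 2
    · -- the Sylow argument
      have hP : IsPGroup 2 (Subgroup.zpowers g₀) := by
        apply IsPGroup.of_card (n := 1)
        rw [Nat.card_zpowers, hg₀ord, hq2, pow_one]
      obtain ⟨Q, hQ⟩ := hP.exists_le_sylow
      obtain ⟨c, hc⟩ := MulAction.exists_smul_eq G Q S
      have hyS : c * g₀ * c⁻¹ ∈ (S : Subgroup G) := by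
        rw [← hc, Sylow.coe_subgroup_smul, Subgroup.mem_pointwise_smul_iff_inv_smul_mem]
        have h1 : (MulAut.conj c)⁻¹ • (c * g₀ * c⁻¹) = g₀ := by
          rw [MulAut.smul_def, MulAut.conj_inv_apply]
          group
        rw [h1]
        exact hQ (Subgroup.mem_zpowers g₀)
      have hy1 : c * g₀ * c⁻¹ ≠ 1 := by
        intro h
        apply hg₀1
        have h2 : g₀ = c⁻¹ * (c * g₀ * c⁻¹) * c := by group
        rw [h2, h, mul_one, inv_mul_cancel]
      have hyc : ∀ a : Ω, g₀ • a = a → (c * g₀ * c⁻¹) • (c • a) = c • a := by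
        intro a ha
        rw [mul_smul, mul_smul, inv_smul_smul, ha]
      obtain ⟨hyα, hyβ⟩ := hS _ hyS hy1 ⟨c • α, hyc α hg₀α⟩
      have h1 : c • α = α ∨ c • α = β := by
        rcases hF' _ hy1 α β (c • α) hyα hyβ (hyc α hg₀α) with h | h | h
        · exact absurd h.symm hβα
        · exact Or.inl h.symm
        · exact Or.inr h.symm
      have h2 : c • α' = α ∨ c • α' = β := by
        rcases hF' _ hy1 α β (c • α') hyα hyβ (hyc α' hg₀α') with h | h | h
        · exact absurd h.symm hβα
        · exact Or.inl h.symm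
        · exact Or.inr h.symm
      have hne : c • α ≠ c • α' := by
        intro h
        exact hnα (smul_left_cancel c h).symm
      rcases h1 with h1 | h1 <;> rcases h2 with h2 | h2
      · exact hne (h1.trans h2.symm)
      · -- c fixes α, c α' = β
        have hcN : c ∈ N := hfixN c ⟨α, h1⟩
        have h3 : (t⁻¹ * (c * n)) • α = α := by
          rw [mul_smul, mul_smul, ← hα', h2, ← htα, inv_smul_smul]
        have h4 : t⁻¹ * (c * n) ∈ N := hfixN _ ⟨α, h3⟩
        have h5 : t⁻¹ ∈ N := by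
          have h6 : t⁻¹ = t⁻¹ * (c * n) * (c * n)⁻¹ := by group
          rw [h6]
          exact N.mul_mem h4 (N.inv_mem (N.mul_mem hcN hnN))
        exact htN (N.inv_mem_iff.mp h5)
      · -- c α = β, c α' = α
        have h3 : (c * n) • α = α := by
          rw [mul_smul, ← hα', h2]
        have h4 : c * n ∈ N := hfixN _ ⟨α, h3⟩
        have hcN : c ∈ N := by
          have h6 : c = c * n * n⁻¹ := by group
          rw [h6]
          exact N.mul_mem h4 (N.inv_mem hnN)
        have h7 : (t⁻¹ * c) • α = α := by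
          rw [mul_smul, h1, ← htα, inv_smul_smul]
        have h8 : t⁻¹ * c ∈ N := hfixN _ ⟨α, h7⟩
        have h5 : t⁻¹ ∈ N := by
          have h6 : t⁻¹ = t⁻¹ * c * c⁻¹ := by group
          rw [h6]
          exact N.mul_mem h8 (N.inv_mem hcN)
        exact htN (N.inv_mem_iff.mp h5)
      · exact hne (h1.trans h2.symm)
    · -- counting on the two `N`-orbits
      obtain ⟨A, hA⟩ : ∃ A : Finset Ω, ∀ ω, ω ∈ A ↔ ∃ m ∈ N, m • α = ω :=
        ⟨Finset.univ.filter (fun ω => ∃ m ∈ N, m • α = ω), fun ω => by simp⟩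
      obtain ⟨B, hB⟩ : ∃ B : Finset Ω, ∀ ω, ω ∈ B ↔ ¬ ∃ m ∈ N, m • α = ω :=
        ⟨Finset.univ.filter (fun ω => ¬ ∃ m ∈ N, m • α = ω), fun ω => by simp⟩
      have hαA : α ∈ A := (hA α).mpr ⟨1, N.one_mem, one_smul _ _⟩
      have hα'A : α' ∈ A := (hA α').mpr ⟨n, hnN, hα'.symm⟩
      have hα'A1 : α' ∈ A.erase α := Finset.mem_erase.mpr ⟨hnα, hα'A⟩
      have hcard1 : ((A.erase α).erase α').card + 2 = A.card := by
        have h1 := Finset.card_erase_add_one hα'A1
        have h2 := Finset.card_erase_add_one hαA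
        omega
      have hAinv : ∀ ω ∈ A, g₀ • ω ∈ A := by
        intro ω hω
        obtain ⟨m, hm, rfl⟩ := (hA ω).mp hω
        exact (hA _).mpr ⟨g₀ * m, N.mul_mem hg₀N hm, mul_smul _ _ _⟩
      have hd1 : q ∣ ((A.erase α).erase α').card := by
        apply frobDvdCard g₀ q hq hg₀q
        · intro ω hω
          rw [Finset.mem_erase, Finset.mem_erase] at hω ⊢
          refine ⟨?_, ?_, hAinv ω hω.2.2⟩
          · intro h
            rw [← hg₀α'] at h
            exact hω.1 (smul_left_cancel g₀ h)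
          · intro h
            rw [← hg₀α] at h
            exact hω.2.1 (smul_left_cancel g₀ h)
        · intro ω hω h
          rw [Finset.mem_erase, Finset.mem_erase] at hω
          rcases hF' g₀ hg₀1 α α' ω hg₀α hg₀α' h with h' | h' | h'
          · exact hnα h'.symm
          · exact hω.2.1 h'.symm
          · exact hω.1 h'.symm
      have hd2 : q ∣ B.card := by
        apply frobDvdCard g₀ q hq hg₀q
        · intro ω hω
          rw [hB] at hω ⊢
          rintro ⟨m, hm, hmω⟩
          apply hω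
          refine ⟨g₀⁻¹ * m, N.mul_mem (N.inv_mem hg₀N) hm, ?_⟩
          rw [mul_smul, hmω, inv_smul_smul]
        · intro ω hω h
          rw [hB] at hω
          rcases hF' g₀ hg₀1 α α' ω hg₀α hg₀α' h with h' | h' | h'
          · exact hnα h'.symm
          · exact hω ⟨1, N.one_mem, by rw [one_smul, h']⟩
          · exact hω ⟨n, hnN, by rw [← hα', h']⟩
      have hcard2 : A.card = B.card := by
        apply Finset.card_bij (fun ω _ => t • ω)
        · intro ω hω
          obtain ⟨m, hm, rfl⟩ := (hA ω).mp hω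
          rw [hB]
          rintro ⟨m', hm', h⟩
          have h3 : (m'⁻¹ * (t * m)) • α = α := by
            rw [mul_smul, mul_smul, ← h, inv_smul_smul]
          have h4 : m'⁻¹ * (t * m) ∈ N := hfixN _ ⟨α, h3⟩
          apply htN
          have h6 : t = m' * (m'⁻¹ * (t * m)) * m⁻¹ := by group
          rw [h6]
          exact N.mul_mem (N.mul_mem hm' h4) (N.inv_mem hm)
        · intro a _ b _ h
          exact smul_left_cancel t h
        · intro ω' hω'
          rw [hB] at hω'
          obtain ⟨g', hg'⟩ := MulAction.exists_smul_eq G α ω'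
          have hg'N : g' ∉ N := fun h => hω' ⟨g', h, hg'⟩
          have h3 : t⁻¹ * g' ∈ N := by
            rw [Subgroup.mul_mem_iff_of_index_two hI]
            constructor
            · intro h
              exact absurd (N.inv_mem_iff.mp h) htN
            · intro h
              exact absurd h hg'N
          refine ⟨(t⁻¹ * g') • α, (hA _).mpr ⟨_, h3, rfl⟩, ?_⟩
          rw [mul_smul, smul_inv_smul, hg']
      have hd3 : q ∣ 2 := by
        have h1 : q ∣ ((A.erase α).erase α').card + 2 := by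
          rw [hcard1, hcard2]
          exact hd2
        exact (Nat.dvd_add_right hd1).mp h1
      exact hq2 ((Nat.prime_dvd_prime_iff_eq hq Nat.prime_two).mp hd3)
  -- the complement
  obtain ⟨x, hxS, hx1, hxα⟩ := hx
  have hxN : x ∈ N := hfixN x ⟨α, hxα⟩
  refine ⟨(MulAction.stabilizer G α).subgroupOf N, ?_, ?_, ?_⟩
  · intro h
    have h1 : (⟨x, hxN⟩ : ↥N) ∈ (MulAction.stabilizer G α).subgroupOf N := by
      rw [Subgroup.mem_subgroupOf, MulAction.mem_stabilizer_iff]
      exact hxα
    rw [h, Subgroup.mem_bot] at h1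
    exact hx1 (congrArg Subtype.val h1)
  · intro h
    have hall : ∀ m ∈ N, m • α = α := by
      intro m hm
      have h1 : (⟨m, hm⟩ : ↥N) ∈ (MulAction.stabilizer G α).subgroupOf N := by
        rw [h]
        exact Subgroup.mem_top _
      rw [Subgroup.mem_subgroupOf, MulAction.mem_stabilizer_iff] at h1
      exact h1
    have hxall : ∀ ω : Ω, x • ω = ω := by
      intro ω
      obtain ⟨g', hg'⟩ := MulAction.exists_smul_eq G α ω
      have h1 : g'⁻¹ * x * g' ∈ N := by
        have h2 := hN.conj_mem x hxN g'⁻¹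
        rwa [inv_inv] at h2
      have h3 := hall _ h1
      rw [← hg']
      have h4 : x • g' • α = g' • ((g'⁻¹ * x * g') • α) := by
        rw [mul_smul, mul_smul, smul_inv_smul]
      rw [h4, h3]
    obtain ⟨ω₀, hω₀α, hω₀β⟩ := hω
    rcases hF' x hx1 α β ω₀ hxα (hxall β) (hxall ω₀) with h' | h' | h'
    · exact hβα h'.symm
    · exact hω₀α h'.symm
    · exact hω₀β h'.symm
  · intro n hn
    rw [Subgroup.mem_subgroupOf, MulAction.mem_stabilizer_iff] at hn
    rw [Subgroup.eq_bot_iff_forall]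
    intro g hg
    rw [Subgroup.mem_inf, Subgroup.mem_pointwise_smul_iff_inv_smul_mem, Subgroup.mem_subgroupOf,
      Subgroup.mem_subgroupOf, MulAction.mem_stabilizer_iff, MulAction.mem_stabilizer_iff] at hg
    obtain ⟨hg1, hg2⟩ := hg
    by_contra hg0
    have hg0' : (g : G) ≠ 1 := fun h => hg0 (Subtype.ext h)
    apply key (g : G) hg0' hg1 (n : G) n.2 hn
    have h1 : (((MulAut.conj n)⁻¹ • g : ↥N) : G) = (n : G)⁻¹ * (g : G) * (n : G) := by
      rw [MulAut.smul_def, MulAut.conj_inv_apply]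
      simp
    rw [h1, mul_smul, mul_smul] at hg2
    have h2 := congrArg (fun ω => (n : G) • ω) hg2
    simp only [smul_inv_smul] at h2
    exact h2

end Cfsg.Agent.Lib.Helper72.Fix2
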